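import Cfsg.Agent.H868.CopHe
import Cfsg.Agent.H492.IMHe
import Cfsg.Agent.BpSpor.Cen

/-!
# The Held group: `CB 7 3 1`, `CB 2 7 1` (S4175 / S4174)
-/

set_option autoImplicit false
set_option maxRecDepth 100000

namespace Cfsg.Agent.H868.CopHe

open Subgroup Cfsg.Agent.H537.Cop

section General

variable {G : Type*} [Group G]

/-- `b` commutes with an element `x` of order 7 such that `9 ∣ |C(b, x)|` -/
def Bad (b : G) : Prop :=
  ∃ x : G, orderOf x = 7 ∧ x * b = b * x ∧ 9 ∣ Nat.card ↥(centralizer ({b} : Set G) ⊓ centralizer ({x} : Set G))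

theorem cent_eq_of_zpowers {b b' : G} (h : zpowers b = zpowers b') :
    centralizer ({b} : Set G) = centralizer ({b'} : Set G) := by
  rw [← centralizer_closure {b}, ← centralizer_closure {b'}, ← zpowers_eq_closure, ← zpowers_eq_closure, h]

theorem Bad.of_zpowers {b b' : G} (h : zpowers b = zpowers b') (hb : Bad b) : Bad b' := by
  obtain ⟨x, hx, hxb, h9⟩ := hb
  have hc := cent_eq_of_zpowers h
  refine ⟨x, hx, ?_, by rwa [← hc]⟩
  have h1 : x ∈ centralizer ({b} : Set G) := mem_centralizer_singleton_iff.2 hxb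
  rw [hc] at h1
  exact mem_centralizer_singleton_iff.1 h1

theorem Bad.conj {b : G} (g : G) (hb : Bad b) : Bad (g * b * g⁻¹) := by
  obtain ⟨x, hx, hxb, h9⟩ := hb
  refine ⟨g * x * g⁻¹, by rw [← hx]; exact Cfsg.Agent.CpAutHe.Seven.orderOf_conj' g x, ?_, ?_⟩
  · calc g * x * g⁻¹ * (g * b * g⁻¹) = g * (x * b) * g⁻¹ := by group
      _ = g * (b * x) * g⁻¹ := by rw [hxb]
      _ = g * b * g⁻¹ * (g * x * g⁻¹) := by group
  · rw [Cfsg.Agent.BpSpor.Cen.card_inf_conj]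
    have h1 : g⁻¹ * (g * x * g⁻¹) * g = x := by group
    rwa [h1]

/-- a bound for the centralizer of one element of order 21 is enough -/
theorem not_bad [Finite G] {b y : G} (hy : orderOf y = 7) (hby : y * b = b * y)
    (h49 : ¬ 7 ^ 2 ∣ Nat.card ↥(centralizer ({b} : Set G)))
    (hle : Nat.card ↥(centralizer ({b} : Set G) ⊓ centralizer ({y} : Set G)) ≤ 62) : ¬ Bad b := by
  rintro ⟨x, hx, hxb, h9⟩
  have h7 : Fact (Nat.Prime 7) := ⟨by norm_num⟩
  obtain ⟨⟨g, hg⟩, hgx⟩ := Cfsg.Agent.CpAutON.Gen.conj_into h49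
    (x := (⟨x, mem_centralizer_singleton_iff.2 hxb⟩ : ↥(centralizer ({b} : Set G))))
    (y := (⟨y, mem_centralizer_singleton_iff.2 hby⟩ : ↥(centralizer ({b} : Set G))))
    (by rw [Subgroup.orderOf_mk, hx]) (by rw [Subgroup.orderOf_mk, hy])
  obtain ⟨n, hn⟩ := mem_zpowers_iff.1 hgx
  have hn' : y ^ n = g * x * g⁻¹ := congrArg Subtype.val hn
  have hle' : zpowers (g * x * g⁻¹) ≤ zpowers y := by
    rw [zpowers_le, ← hn']
    exact zpow_mem (mem_zpowers y) n
  have hz : zpowers (g * x * g⁻¹) = zpowers y := by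
    apply Subgroup.eq_of_le_of_card_ge hle'
    rw [Nat.card_zpowers, Nat.card_zpowers, hy, Cfsg.Agent.CpAutHe.Seven.orderOf_conj' g x, hx]
  have hgb : g * b = b * g := mem_centralizer_singleton_iff.1 hg
  have hgb' : g⁻¹ * b * g = b := by
    rw [mul_assoc, ← hgb, ← mul_assoc, inv_mul_cancel, one_mul]
  have h1 : Nat.card ↥(centralizer ({b} : Set G) ⊓ centralizer ({y} : Set G)) =
      Nat.card ↥(centralizer ({b} : Set G) ⊓ centralizer ({x} : Set G)) := by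
    rw [← cent_eq_of_zpowers hz, inf_comm, Cfsg.Agent.BpSpor.Cen.card_inf_conj, hgb', inf_comm]
  have h2 : 7 ∣ Nat.card ↥(centralizer ({b} : Set G) ⊓ centralizer ({x} : Set G)) := by
    have h3 : x ∈ centralizer ({b} : Set G) ⊓ centralizer ({x} : Set G) :=
      ⟨mem_centralizer_singleton_iff.2 hxb, mem_centralizer_singleton_iff.2 rfl⟩
    have h4 := orderOf_dvd_natCard (⟨x, h3⟩ : ↥(centralizer ({b} : Set G) ⊓ centralizer ({x} : Set G)))
    rwa [Subgroup.orderOf_mk, hx] at h4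
  rw [← h1] at h2 h9
  have h3 : 0 < Nat.card ↥(centralizer ({b} : Set G) ⊓ centralizer ({y} : Set G)) := Nat.card_pos
  generalize Nat.card ↥(centralizer ({b} : Set G) ⊓ centralizer ({y} : Set G)) = N at h2 h9 h3 hle
  omega

theorem exists_bad [Finite G] {x : G} (hx : orderOf x = 7) (h9 : 9 ∣ Nat.card ↥(centralizer ({x} : Set G))) :
    ∃ b : G, orderOf b = 3 ∧ Bad b := by
  have h3 : Fact (Nat.Prime 3) := ⟨Nat.prime_three⟩
  obtain ⟨R, hR⟩ := Sylow.exists_subgroup_card_pow_prime (G := ↥(centralizer ({x} : Set G))) 3 (n := 2) (by simpa using h9)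
  have hcomm := (IsPGroup.isMulCommutative_of_card_eq_prime_sq hR).is_comm.comm
  have h4 : 3 ∣ Nat.card R := by rw [hR]; norm_num
  obtain ⟨b, hb⟩ := exists_prime_orderOf_dvd_card' 3 h4
  refine ⟨((b : ↥(centralizer ({x} : Set G))) : G), by rw [Subgroup.orderOf_coe, Subgroup.orderOf_coe, hb], x, hx,
    (mem_centralizer_singleton_iff.1 (b : ↥(centralizer ({x} : Set G))).2).symm, ?_⟩
  have h5 : R.map (centralizer ({x} : Set G)).subtype ≤
      centralizer ({((b : ↥(centralizer ({x} : Set G))) : G)} : Set G) ⊓ centralizer ({x} : Set G) := by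
    rintro _ ⟨r, hr, rfl⟩
    refine ⟨mem_centralizer_singleton_iff.2 ?_, r.2⟩
    have h6 := hcomm ⟨r, hr⟩ b
    exact congrArg (fun t : R => ((t : ↥(centralizer ({x} : Set G))) : G)) h6
  have h6 := Subgroup.card_dvd_of_le h5
  rw [card_map_of_injective (centralizer ({x} : Set G)).subtype_injective, hR] at h6
  simpa using h6

end General

open Cfsg.Spor.He (Gen)
open Cfsg.Agent.SporadicB.HePerm (act wd phi phi_wd_apply)
open Cfsg.Agent.FixBN.HeStab Cfsg.Agent.KFacts.He.Lv Cfsg.Agent.CpAutHe.Cnt Cfsg.Agent.H19.Odd.HeCnt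
open Cfsg.Agent.CpAutHe.Seven (ne_one_of_act)
open Cfsg.Agent.H19.Odd.HeEl

instance fp7 : Fact (Nat.Prime 7) := ⟨by norm_num⟩

/-- a word of order 21 whose 7th power is of class `3A` -/
def W1 : List Gen := [.a, .b, .c, .d]
/-- a word of order 21 whose 7th power is of class `3B` -/
def W2 : List Gen := [.a, .b, .c, .d, .c, .d, .f]

def G1 : List Gen := [.b, .f, .d, .c, .d, .c, .d, .e, .f, .e, .d, .c, .a, .f, .a, .b, .d, .g, .c]
def G2 : List Gen := [.d, .a, .d, .f, .g, .c, .d, .f, .e, .g, .c, .b, .d, .g, .d, .c, .g, .a, .f, .b, .g, .e, .d, .c, .e,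
  .d, .a, .c, .g, .b, .d, .a, .g, .e, .d, .b, .c, .g, .f, .d, .c, .b, .a, .e, .g, .d, .e, .c, .d, .b]

theorem g1 : wd G1 * wd XA * (wd G1)⁻¹ = wd (pw W1 7) := conj_of_chk (by decide +kernel)
theorem g2 : wd G2 * wd XB * (wd G2)⁻¹ = wd (pw W2 7) := conj_of_chk (by decide +kernel)

theorem o1 : orderOf (wd (pw W1 3)) = 7 :=
  orderOf_of (by norm_num) (pow_of_chk (by decide +kernel)) (ne_one_of_act 0 (by decide +kernel))
theorem o2 : orderOf (wd (pw W2 3)) = 7 :=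
  orderOf_of (by norm_num) (pow_of_chk (by decide +kernel)) (ne_one_of_act 0 (by decide +kernel))

def l1 : List Stp := [⟨32, [], [1, 2], 42⟩, ⟨8, [18, 112], [1], 1⟩, ⟨0, [8, 18, 90], [3, 1], 1⟩]
def l2 : List Stp := [⟨451, [], [1, 3], 42⟩, ⟨1, [1158, 401, 1783, 451, 1367], [2], 1⟩, ⟨0, [72, 401, 1367], [], 1⟩,
  ⟨8, [0, 76, 2045, 401, 12, 451], [], 1⟩, ⟨32, [1084, 12], [1], 1⟩]

theorem run1 : run W1 l1 [] = true := by decide +kernel
theorem run2 : run W2 l2 [] = true := by decide +kernel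

theorem card1 : Nat.card ↥(centralizer ({wd W1} : Set Cfsg.Spor.He)) ≤ 42 := card_le run1 (by decide)
theorem card2 : Nat.card ↥(centralizer ({wd W2} : Set Cfsg.Spor.He)) ≤ 42 := card_le run2 (by decide)

theorem inf_le (W : List Gen) :
    centralizer ({wd (pw W 7)} : Set Cfsg.Spor.He) ⊓ centralizer ({wd (pw W 3)} : Set Cfsg.Spor.He) ≤
      centralizer ({wd W} : Set Cfsg.Spor.He) := by
  intro c hc
  have h7 : Commute c (wd W ^ 7) := by
    have := mem_centralizer_singleton_iff.1 hc.1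
    rwa [wd_pw] at this
  have h3 : Commute c (wd W ^ 3) := by
    have := mem_centralizer_singleton_iff.1 hc.2
    rwa [wd_pw] at this
  have e : wd W = wd W ^ 7 * ((wd W ^ 3) ^ 2)⁻¹ := by
    rw [← pow_mul, eq_mul_inv_iff_mul_eq, ← pow_succ']
  rw [mem_centralizer_singleton_iff, e]
  exact (h7.mul_right (h3.pow_right 2).inv_right).eq

theorem comm37 (W : List Gen) : wd (pw W 3) * wd (pw W 7) = wd (pw W 7) * wd (pw W 3) := by
  rw [wd_pw, wd_pw]
  exact ((Commute.refl (wd W)).pow_pow 3 7).eq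

theorem card_cent_g {g b b' : Cfsg.Spor.He} (h : g * b * g⁻¹ = b') :
    Nat.card ↥(centralizer ({b'} : Set Cfsg.Spor.He)) = Nat.card ↥(centralizer ({b} : Set Cfsg.Spor.He)) := by
  rw [← h]
  exact Cfsg.Agent.CpAutHe.Seven.card_cent_conj g b

theorem arithA {N : ℕ} (hpos : 0 < N) (h8 : 8 ∣ N) (h27 : 27 ∣ N) (h7 : 7 ∣ N) (hle : N ≤ 7560) : ¬ 7 ^ 2 ∣ N := by
  have h1 : 8 * 27 ∣ N := Nat.Coprime.mul_dvd_of_dvd_of_dvd (by norm_num) h8 h27
  intro h49
  have h2 : 8 * 27 * 7 ^ 2 ∣ N := Nat.Coprime.mul_dvd_of_dvd_of_dvd (by norm_num) h1 h49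
  have h3 := Nat.le_of_dvd hpos h2
  norm_num at h3
  omega

theorem arithB {N : ℕ} (hpos : 0 < N) (h4 : 4 ∣ N) (h9 : 3 ^ 2 ∣ N) (hle : N ≤ 504) : ¬ 7 ^ 2 ∣ N := by
  have h1 : 4 * 3 ^ 2 ∣ N := Nat.Coprime.mul_dvd_of_dvd_of_dvd (by norm_num) h4 h9
  intro h49
  have h2 : 4 * 3 ^ 2 * 7 ^ 2 ∣ N := Nat.Coprime.mul_dvd_of_dvd_of_dvd (by norm_num) h1 h49
  have h3 := Nat.le_of_dvd hpos h2
  norm_num at h3
  omega

theorem h49A : ¬ 7 ^ 2 ∣ Nat.card ↥(centralizer ({wd (pw W1 7)} : Set Cfsg.Spor.He)) := by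
  have hfin : Finite Cfsg.Spor.He := Cfsg.Agent.FixBN.HeStab.finite_he
  have h3 : Fact (Nat.Prime 3) := ⟨Nat.prime_three⟩
  have h7 : 7 ∣ Nat.card ↥(centralizer ({wd (pw W1 7)} : Set Cfsg.Spor.He)) :=
    Cfsg.Agent.H492.IMHe.dvd_cent (comm37 W1) o1
  rw [card_cent_g g1] at h7 ⊢
  refine arithA Nat.card_pos eight ?_ h7 cardA
  have h4 := Cfsg.Agent.H19.Odd.Heis.card_P_dvd A_pow U3_pow V3_pow A_U3 A_V3 U3_V3 (by norm_num) A_ne
  refine dvd_trans h4 (Subgroup.card_dvd_of_le ?_)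
  exact Cfsg.Agent.H19.Odd.Heis.P_le_centralizer A_U3 A_V3 U3_V3 (Commute.refl _) A_U3 A_V3

theorem h49B : ¬ 7 ^ 2 ∣ Nat.card ↥(centralizer ({wd (pw W2 7)} : Set Cfsg.Spor.He)) := by
  have hfin : Finite Cfsg.Spor.He := Cfsg.Agent.FixBN.HeStab.finite_he
  have h3 : Fact (Nat.Prime 3) := ⟨Nat.prime_three⟩
  rw [card_cent_g g2]
  have e : centralizer ({wd XB} : Set Cfsg.Spor.He) =
      centralizer ({wd Cfsg.Agent.H492.IMHeDat.XB3} : Set Cfsg.Spor.He) := by
    apply cent_eq_of_zpowers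
    have h1 : wd XB * wd Cfsg.Agent.H492.IMHeDat.XB3 = 1 := by
      rw [← wd_append]
      exact one_of_chk (by decide +kernel)
    rw [eq_inv_of_mul_eq_one_left h1, zpowers_inv]
  refine arithB Nat.card_pos ?_ ?_ cardB
  · rw [e]
    exact Cfsg.Agent.H492.IMHe.dvd_cent (comm_of_chk (by decide +kernel)) Cfsg.Agent.H492.IMHe.o4'
  · rw [e]
    exact (Cfsg.Agent.H492.IMHe.pair (p := 3) Cfsg.Agent.H492.IMHeDat.XB3 Cfsg.Agent.H492.IMHeDat.YB3 _
      Cfsg.Agent.H492.IMHe.o3 Cfsg.Agent.H492.IMHe.oy3 (by decide +kernel) (by decide +kernel)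
      (by norm_num) Cfsg.Agent.H492.IMHeDat.qB3).1

theorem not_bad1 : ¬ Bad (wd (pw W1 7)) := by
  have hfin : Finite Cfsg.Spor.He := Cfsg.Agent.FixBN.HeStab.finite_he
  refine not_bad o1 (comm37 W1) h49A ?_
  have h1 := Nat.le_of_dvd Nat.card_pos (Subgroup.card_dvd_of_le (inf_le W1))
  exact h1.trans (card1.trans (by norm_num))

theorem not_bad2 : ¬ Bad (wd (pw W2 7)) := by
  have hfin : Finite Cfsg.Spor.He := Cfsg.Agent.FixBN.HeStab.finite_he
  refine not_bad o2 (comm37 W2) h49B ?_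
  have h1 := Nat.le_of_dvd Nat.card_pos (Subgroup.card_dvd_of_le (inf_le W2))
  exact h1.trans (card2.trans (by norm_num))

/-- no element of order 3 is bad -/
theorem not_bad_three {b : Cfsg.Spor.He} (hb : orderOf b = 3) : ¬ Bad b := by
  intro hbad
  have hfin : Finite Cfsg.Spor.He := Cfsg.Agent.FixBN.HeStab.finite_he
  have h3 : Fact (Nat.Prime 3) := ⟨Nat.prime_three⟩
  have kA : ∀ {y g : Cfsg.Spor.He}, g * y * g⁻¹ = wd XA → ¬ Bad y := fun {y g} h hy => by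
    have h1 := (hy.conj g).conj (wd G1)
    rw [h, g1] at h1
    exact not_bad1 h1
  have kB : ∀ {y g : Cfsg.Spor.He}, g * y * g⁻¹ = wd XB → ¬ Bad y := fun {y g} h hy => by
    have h1 := (hy.conj g).conj (wd G2)
    rw [h, g2] at h1
    exact not_bad2 h1
  obtain ⟨y, hy, g, hg⟩ := Cfsg.Agent.H19.Odd.Heis.reps3 A_pow U3_pow V3_pow A_U3 A_V3 U3_V3 (by norm_num) A_ne
    (not_dvd (by decide)) hb
  have h1 : Bad y := (hbad.conj g).of_zpowers hg
  rcases hy with rfl | rfl | ⟨i, hi, rfl⟩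
  · exact kA (g := 1) (by group) h1
  · exact kA g3u h1
  · interval_cases i
    · rw [pow_zero, mul_one] at h1
      exact kA g3v h1
    · rw [pow_one, ← wd_append] at h1
      exact kB g3a h1
    · rw [pow_two, ← wd_append, ← wd_append] at h1
      exact kB g3b h1

/-- **`CB 7 3 1`** -/
theorem cb_seven_three : CB 7 3 1 Cfsg.Spor.He := by
  intro x hx hd
  have hfin : Finite Cfsg.Spor.He := Cfsg.Agent.FixBN.HeStab.finite_he
  obtain ⟨b, hb, hbad⟩ := exists_bad hx (by simpa using hd)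
  exact not_bad_three hb hbad

/-! ### involutions -/

theorem pow_mem_L {x : Cfsg.Spor.He} (hx : x ^ 49 = 1) (ha : x * gn .a = gn .a * x) : x ∈ Cfsg.Agent.KFacts.He.TwoACent.L := by
  rcases Cfsg.Agent.KFacts.He.TwoACent.two ha ha with h | h | h
  · exact h
  · exact h
  · have e : x = (x * x) ^ 25 := by
      rw [← pow_two, ← pow_mul, show 2 * 25 = 49 + 1 by norm_num, pow_succ, hx, one_mul]
    rw [e]
    exact Subgroup.pow_mem _ h 25

theorem a49 : ¬ 7 ^ 2 ∣ Nat.card ↥(centralizer ({gn .a} : Set Cfsg.Spor.He)) := by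
  have hfin : Finite Cfsg.Spor.He := Cfsg.Agent.FixBN.HeStab.finite_he
  intro hd
  obtain ⟨R, hR⟩ := Sylow.exists_subgroup_card_pow_prime (G := ↥(centralizer ({gn .a} : Set Cfsg.Spor.He))) 7 hd
  have h1 : R.map (centralizer ({gn .a} : Set Cfsg.Spor.He)).subtype ≤ Cfsg.Agent.KFacts.He.TwoACent.L := by
    rintro _ ⟨r, hr, rfl⟩
    refine pow_mem_L ?_ (mem_centralizer_singleton_iff.1 r.2)
    have h2 : (⟨r, hr⟩ : R) ^ 7 ^ 2 = 1 := by rw [← hR]; exact pow_card_eq_one'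
    exact congrArg (fun t : R => ((t : ↥(centralizer ({gn .a} : Set Cfsg.Spor.He))) : Cfsg.Spor.He)) h2
  have h2 := Subgroup.card_dvd_of_le h1
  rw [card_map_of_injective (centralizer ({gn .a} : Set Cfsg.Spor.He)).subtype_injective, hR,
    Cfsg.Agent.CpAutHe.Seven.card_L] at h2
  norm_num at h2

/-- **`CB 2 7 1`** -/
theorem cb_two_seven : CB 2 7 1 Cfsg.Spor.He := by
  intro t ht hd
  have hfin : Finite Cfsg.Spor.He := Cfsg.Agent.FixBN.HeStab.finite_he
  have htt : t * t = 1 := by rw [← pow_two, ← ht, pow_orderOf_eq_one]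
  have ht1 : t ≠ 1 := by
    intro h
    rw [h, orderOf_one] at ht
    omega
  have hd2 : 7 ^ 2 ∣ Nat.card ↥(centralizer ({t} : Set Cfsg.Spor.He)) := hd
  rcases Cfsg.Agent.KFacts.He.Classes.two_classes_a htt ht1 with ⟨g, hg⟩ | ⟨g, hg⟩
  · rw [← hg, Cfsg.Agent.CpAutHe.Seven.card_cent_conj, Cfsg.Agent.KFacts.He.Classes.card_centralizer] at hd2
    norm_num at hd2
  · rw [← hg, Cfsg.Agent.CpAutHe.Seven.card_cent_conj] at hd2
    exact a49 hd2

end Cfsg.Agent.H868.CopHe
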